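import Cfsg.Agent.H791.Gen.Psl2
import Cfsg.Agent.H479.GenLin
import Cfsg.Agent.H891.Gen.LinRows
import Cfsg.Agent.S2602

/-!
# TEAM GEN: `SL₂(13)` and `SL₂(5)` over the field with three elements (helper495)

* `twoGen_of_quot` : `G` is 2-generated if `G / C` is, for `C = C_G(N)` cyclic, `N` perfect, `|G : NC| ≤ 2`
* `twoGen_sl2` : `N ≅ SL₂(F)`, `F` of odd prime order at least `5`, `C_G(N)` cyclic
-/

set_option autoImplicit false
set_option linter.unusedSectionVars false

namespace Cfsg.Agent.H495.Gen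

open Cfsg Cfsg.Agent.H440.TwoGen Cfsg.Agent.H891.Gen Subgroup
open scoped commutatorElement

universe u v

section abstract

variable {Γ : Type u} [Group Γ]

theorem twoGen_of_quot [Finite Γ] (N C : Subgroup Γ) [hN : N.Normal] [hC : C.Normal] (hCc : IsCyclic C)
    (hNC : ∀ n ∈ N, ∀ c ∈ C, n * c = c * n) (hp : ⁅N, N⁆ = N) (hi : (N ⊔ C).index ≤ 2) (h : TwoGen (Γ ⧸ C)) :
    TwoGen Γ := by
  classical
  set K := N ⊔ C with hK
  have hCK : C ≤ K := le_sup_right
  have hKn : K.Normal := inferInstance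
  -- elements of `K`
  have hmemK : ∀ k ∈ K, ∃ n ∈ N, ∃ c ∈ C, n * c = k := fun k hk => mem_sup_of_normal_right.1 hk
  have hCcom : ∀ a ∈ C, ∀ b ∈ C, a * b = b * a := by
    intro a ha b hb
    exact congrArg Subtype.val ((IsCyclic.isMulCommutative (α := C)).is_comm.comm (⟨a, ha⟩ : C) ⟨b, hb⟩)
  have hKC : ∀ k ∈ K, ∀ c ∈ C, k * c = c * k := by
    intro k hk c hc
    obtain ⟨n, hn, d, hd, rfl⟩ := hmemK k hk
    rw [mul_assoc, hCcom d hd c hc, ← mul_assoc, hNC n hn c hc, mul_assoc]
  -- a pair with the first element in `K`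
  obtain ⟨x, y, hx, hxy⟩ : ∃ x y : Γ, x ∈ K ∧ closure ({x, y} : Set Γ) ⊔ C = ⊤ := by
    obtain ⟨x, y, hxy⟩ := h
    obtain ⟨x, rfl⟩ := QuotientGroup.mk'_surjective C x
    obtain ⟨y, rfl⟩ := QuotientGroup.mk'_surjective C y
    have h1 : closure ({x, y} : Set Γ) ⊔ C = ⊤ := by
      have h2 : (closure ({x, y} : Set Γ)).map (QuotientGroup.mk' C) = ⊤ := by
        rw [MonoidHom.map_closure, Set.image_pair]
        exact hxy
      have h3 := congrArg (comap (QuotientGroup.mk' C)) h2
      rw [comap_map_eq, QuotientGroup.ker_mk', comap_top] at h3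
      exact h3
    by_cases hx : x ∈ K
    · exact ⟨x, y, hx, h1⟩
    by_cases hy : y ∈ K
    · exact ⟨y, x, hy, by rwa [Set.pair_comm]⟩
    · -- both outside
      have hidx : K.index = 2 := by
        have h2 : K.index ≠ 0 := K.index_ne_zero_of_finite
        have h3 : K.index ≠ 1 := fun h3 => hx (by rw [index_eq_one.1 h3]; exact mem_top x)
        omega
      refine ⟨x * y, y, (mul_mem_iff_of_index_two hidx).2 (by tauto), ?_⟩
      rw [← h1]
      congr 1
      apply le_antisymm
      · rw [closure_le]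
        rintro z (rfl | hz)
        · exact mul_mem (subset_closure (by simp)) (subset_closure (by simp))
        · rw [Set.mem_singleton_iff] at hz
          subst hz
          exact subset_closure (by simp)
      · rw [closure_le]
        rintro z (rfl | hz)
        · have h4 : z = z * y * y⁻¹ := by group
          rw [h4]
          exact mul_mem (subset_closure (by simp)) (inv_mem (subset_closure (by simp)))
        · rw [Set.mem_singleton_iff] at hz
          subst hz
          exact subset_closure (by simp)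
  obtain ⟨n, hn, c, hc, rfl⟩ := hmemK x hx
  obtain ⟨⟨c0, hc0⟩, hgen⟩ := IsCyclic.exists_generator (α := C)
  refine ⟨n * c0, y, ?_⟩
  set H := closure ({n * c0, y} : Set Γ) with hH
  have h1 : n * c0 ∈ H := subset_closure (by simp)
  have h2 : y ∈ H := subset_closure (by simp)
  have hHC : H ⊔ C = ⊤ := by
    rw [← top_le_iff, ← hxy]
    refine sup_le ?_ le_sup_right
    rw [closure_le]
    rintro z (rfl | hz)
    · have h4 : n * c = n * c0 * (c0⁻¹ * c) := by group
      rw [h4]
      exact mul_mem (mem_sup_left h1) (mem_sup_right (mul_mem (inv_mem hc0) hc))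
    · rw [Set.mem_singleton_iff] at hz
      subst hz
      exact mem_sup_left h2
  have hmem : ∀ g : Γ, ∃ h ∈ H, ∃ c ∈ C, h * c = g := fun g =>
    mem_sup_of_normal_right.1 (by rw [hHC]; exact mem_top g)
  have hNH : N ≤ H := by
    rw [← hp, commutator_le]
    intro a ha b hb
    obtain ⟨a', ha', c1, hc1, rfl⟩ := hmem a
    obtain ⟨b', hb', c2, hc2, rfl⟩ := hmem b
    have hNK : N ≤ K := le_sup_left
    have ha'K : a' ∈ K := by
      have h4 : a' = a' * c1 * c1⁻¹ := by group
      rw [h4]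
      exact mul_mem (hNK ha) (inv_mem (hCK hc1))
    have hb'K : b' ∈ K := by
      have h4 : b' = b' * c2 * c2⁻¹ := by group
      rw [h4]
      exact mul_mem (hNK hb) (inv_mem (hCK hc2))
    have h5 : ⁅a' * c1, b' * c2⁆ = ⁅a', b'⁆ := by
      rw [commutatorElement_def, commutatorElement_def]
      have e1 := hKC b' hb'K c1 hc1
      have e2 := hCcom c1 hc1 c2 hc2
      have e3 := hKC a'⁻¹ (inv_mem ha'K) c2 hc2
      calc a' * c1 * (b' * c2) * (a' * c1)⁻¹ * (b' * c2)⁻¹
          = a' * (c1 * b') * (c2 * c1⁻¹) * a'⁻¹ * c2⁻¹ * b'⁻¹ := by group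
        _ = a' * (b' * c1) * (c1⁻¹ * c2) * a'⁻¹ * c2⁻¹ * b'⁻¹ := by
          rw [← e1]
          have e4 : c2 * c1⁻¹ = c1⁻¹ * c2 := by
            rw [eq_inv_mul_iff_mul_eq, ← mul_assoc, e2, mul_assoc, mul_inv_cancel, mul_one]
          rw [e4]
        _ = a' * b' * (c2 * a'⁻¹) * c2⁻¹ * b'⁻¹ := by group
        _ = a' * b' * (a'⁻¹ * c2) * c2⁻¹ * b'⁻¹ := by rw [e3]
        _ = a' * b' * a'⁻¹ * b'⁻¹ := by group
    rw [h5]
    rw [commutatorElement_def]
    exact mul_mem (mul_mem (mul_mem ha' hb') (inv_mem ha')) (inv_mem hb')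
  have hc0H : c0 ∈ H := by
    have h4 : c0 = n⁻¹ * (n * c0) := by group
    rw [h4]
    exact mul_mem (inv_mem (hNH hn)) h1
  have hCH : C ≤ H := by
    intro d hd
    obtain ⟨k, hk⟩ := mem_zpowers_iff.1 (hgen ⟨d, hd⟩)
    have h4 : d = c0 ^ k := (congrArg Subtype.val hk).symm
    rw [h4]
    exact zpow_mem hc0H k
  rw [← top_le_iff, ← hHC]
  exact sup_le le_rfl hCH

/-- the centralizer of the image of `N` -/
theorem centralizer_map (N : Subgroup Γ) [hN : N.Normal] (hp : ⁅N, N⁆ = N) :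
    centralizer ((N.map (QuotientGroup.mk' (centralizer (N : Set Γ))) : Subgroup _) : Set (Γ ⧸ centralizer (N : Set Γ))) =
      ⊥ := by
  rw [eq_bot_iff]
  intro g hg
  obtain ⟨g, rfl⟩ := QuotientGroup.mk'_surjective _ g
  rw [mem_bot, QuotientGroup.mk'_apply, QuotientGroup.eq_one_iff]
  have h1 : ∀ n ∈ N, g * n * g⁻¹ * n⁻¹ ∈ centralizer (N : Set Γ) := by
    intro n hn
    have h2 := mem_centralizer_iff.1 hg _ (mem_map_of_mem _ hn)
    rw [← map_mul, ← map_mul] at h2
    have h3 := QuotientGroup.eq.1 h2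
    have h4 : g * n * g⁻¹ * n⁻¹ = (n * g) * ((n * g)⁻¹ * (g * n)) * (n * g)⁻¹ := by group
    rw [h4]
    exact (inferInstance : (centralizer (N : Set Γ)).Normal).conj_mem _ h3 _
  rw [mem_centralizer_iff]
  have h5 : N ≤ centralizer ({g} : Set Γ) := by
    rw [← hp, commutator_le]
    intro a ha b hb
    have e1 := h1 a ha
    have e2 := h1 b hb
    have hNc : ∀ n ∈ N, g * n * g⁻¹ * n⁻¹ ∈ N := fun n hn => mul_mem (hN.conj_mem n hn g) (inv_mem hn)
    obtain ⟨c, hc⟩ : ∃ c, c = g * a * g⁻¹ * a⁻¹ := ⟨_, rfl⟩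
    obtain ⟨d, hd⟩ : ∃ d, d = g * b * g⁻¹ * b⁻¹ := ⟨_, rfl⟩
    rw [← hc] at e1
    rw [← hd] at e2
    have hcN : c ∈ N := by rw [hc]; exact hNc a ha
    have hdN : d ∈ N := by rw [hd]; exact hNc b hb
    have ga : g * a * g⁻¹ = c * a := by rw [hc]; group
    have gb : g * b * g⁻¹ = d * b := by rw [hd]; group
    have ca := mem_centralizer_iff.1 e1
    have cb := mem_centralizer_iff.1 e2
    rw [mem_centralizer_iff]
    intro x hx
    rw [Set.mem_singleton_iff] at hx
    subst hx
    rw [← mul_inv_eq_iff_eq_mul]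
    have h6 : x * ⁅a, b⁆ * x⁻¹ = ⁅x * a * x⁻¹, x * b * x⁻¹⁆ := by
      rw [commutatorElement_def, commutatorElement_def]; group
    rw [h6, ga, gb, commutatorElement_def, commutatorElement_def]
    have f1 : c⁻¹ * d⁻¹ = d⁻¹ * c⁻¹ := by rw [← mul_inv_rev, ← mul_inv_rev, ca d hdN]
    calc c * a * (d * b) * (c * a)⁻¹ * (d * b)⁻¹
        = c * (a * d) * (b * a⁻¹) * c⁻¹ * b⁻¹ * d⁻¹ := by group
      _ = c * (d * a) * (b * a⁻¹) * c⁻¹ * b⁻¹ * d⁻¹ := by rw [cb a ha]
      _ = (c * d) * (a * b * a⁻¹) * (c⁻¹ * b⁻¹) * d⁻¹ := by group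
      _ = (c * d) * (a * b * a⁻¹) * (b⁻¹ * c⁻¹) * d⁻¹ := by
        have f2 : c⁻¹ * b⁻¹ = b⁻¹ * c⁻¹ := by rw [← mul_inv_rev, ← mul_inv_rev, ca b hb]
        rw [f2]
      _ = (c * d) * ((a * b * a⁻¹ * b⁻¹) * (c⁻¹ * d⁻¹)) := by group
      _ = (c * d) * ((c⁻¹ * d⁻¹) * (a * b * a⁻¹ * b⁻¹)) := by
        have hab : a * b * a⁻¹ * b⁻¹ ∈ N := mul_mem (mul_mem (mul_mem ha hb) (inv_mem ha)) (inv_mem hb)
        have hcd : c⁻¹ * d⁻¹ ∈ centralizer (N : Set Γ) := mul_mem (inv_mem e1) (inv_mem e2)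
        rw [mem_centralizer_iff.1 hcd _ hab]
      _ = (c * d) * (d⁻¹ * c⁻¹) * (a * b * a⁻¹ * b⁻¹) := by rw [f1]; group
      _ = a * b * a⁻¹ * b⁻¹ := by group
  intro n hn
  exact (mem_centralizer_iff.1 (h5 hn) g (Set.mem_singleton g)).symm

/-- the image of `N` is `PSL₂` -/
theorem exists_equiv {F : Type} [Field F] (N : Subgroup Γ) [hN : N.Normal]
    (e : ↥N ≃* Matrix.SpecialLinearGroup (Fin 2) F) :
    Nonempty (↥(N.map (QuotientGroup.mk' (centralizer (N : Set Γ)))) ≃* Matrix.ProjectiveSpecialLinearGroup (Fin 2) F) := by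
  let f : ↥N →* ↥(N.map (QuotientGroup.mk' (centralizer (N : Set Γ)))) :=
    (QuotientGroup.mk' (centralizer (N : Set Γ))).subgroupMap N
  have hf : Function.Surjective f := MonoidHom.subgroupMap_surjective _ _
  let g : ↥N →* Matrix.ProjectiveSpecialLinearGroup (Fin 2) F :=
    (QuotientGroup.mk' (center (Matrix.SpecialLinearGroup (Fin 2) F))).comp e.toMonoidHom
  have hg : Function.Surjective g := (QuotientGroup.mk'_surjective _).comp e.surjective
  have hk : f.ker = g.ker := by
    ext n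
    have h1 : n ∈ f.ker ↔ n ∈ center ↥N := by
      rw [MonoidHom.mem_ker]
      have h2 : f n = 1 ↔ (QuotientGroup.mk' (centralizer (N : Set Γ))) (n : Γ) = 1 := by
        constructor
        · intro h; exact congrArg Subtype.val h
        · intro h; exact Subtype.ext h
      rw [h2, QuotientGroup.mk'_apply, QuotientGroup.eq_one_iff, mem_centralizer_iff, mem_center_iff]
      constructor
      · intro h m
        exact Subtype.ext (h m m.2)
      · intro h m hm
        exact congrArg Subtype.val (h ⟨m, hm⟩)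
    have h2 : n ∈ g.ker ↔ n ∈ center ↥N := by
      rw [MonoidHom.mem_ker]
      have h3 : g n = QuotientGroup.mk' (center (Matrix.SpecialLinearGroup (Fin 2) F)) (e n) := rfl
      rw [h3, QuotientGroup.mk'_apply, QuotientGroup.eq_one_iff, mem_center_iff, mem_center_iff]
      constructor
      · intro h m
        apply e.injective
        rw [map_mul, map_mul]
        exact h (e m)
      · intro h m
        obtain ⟨m, rfl⟩ := e.surjective m
        rw [← map_mul, ← map_mul, h m]
    rw [h1, h2]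
  exact ⟨(QuotientGroup.quotientKerEquivOfSurjective f hf).symm.trans
    ((QuotientGroup.quotientMulEquivOfEq hk).trans (QuotientGroup.quotientKerEquivOfSurjective g hg))⟩

theorem card_out {q : ℕ} [hq : Fact q.Prime] (h5 : 5 ≤ q) :
    Nat.card (Out (Matrix.ProjectiveSpecialLinearGroup (Fin 2) (ZMod q))) = 2 := by
  obtain ⟨φ, hφ, -, hk⟩ := S2602.result (F := ZMod q) (p := q) (f := 1) le_rfl (by rw [ZMod.card, pow_one])
    (by rw [pow_one]; omega)
  rw [← Subgroup.card_mul_index φ.ker, hk, Subgroup.index_ker, MonoidHom.range_eq_top.2 hφ, Subgroup.card_top, pow_one]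
  have h1 : Nat.card (Multiplicative (ZMod 1)) = 1 := by
    rw [Nat.card_congr Multiplicative.toAdd, Nat.card_zmod]
  rw [h1, mul_one]
  have h2 : Odd q := hq.out.odd_of_ne_two (by omega)
  obtain ⟨k, hk⟩ := h2
  have h3 : q - 1 = 2 * k := by omega
  rw [h3, Nat.gcd_mul_right_right]

theorem twoGen_sl2 [Finite Γ] (N : Subgroup Γ) [hN : N.Normal] {q : ℕ} [hq : Fact q.Prime] (h5 : 5 ≤ q)
    (e : ↥N ≃* Matrix.SpecialLinearGroup (Fin 2) (ZMod q)) (hcyc : IsCyclic ↥(centralizer (N : Set Γ)))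
    (hp : ⁅N, N⁆ = N) : TwoGen Γ := by
  classical
  obtain ⟨e'⟩ := exists_equiv N e
  have hT : (N.map (QuotientGroup.mk' (centralizer (N : Set Γ)))).Normal := hN.map _ (QuotientGroup.mk'_surjective _)
  have hc := centralizer_map N hp
  have hcard : 4 ≤ Fintype.card (ZMod q) := by rw [ZMod.card]; omega
  refine twoGen_of_quot N (centralizer (N : Set Γ)) hcyc ?_ hp ?_
    (H791.Gen.twoGen_of_aut _ hc e' fun S hS => H791.Gen.twoGen_sub hcard S hS)
  · intro n hn c hc
    exact mem_centralizer_iff.1 hc n hn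
  · obtain ⟨S, hS, ⟨f⟩⟩ := H791.Gen.exists_aut _ hc e'
    have hfin : Finite (Matrix.ProjectiveSpecialLinearGroup (Fin 2) (ZMod q)) := inferInstance
    have hfinA : Finite (MulAut (Matrix.ProjectiveSpecialLinearGroup (Fin 2) (ZMod q))) :=
      Finite.of_injective (fun f => (f : Matrix.ProjectiveSpecialLinearGroup (Fin 2) (ZMod q) → _)) DFunLike.coe_injective
    have h1 : (N ⊔ centralizer (N : Set Γ)).index = (N.map (QuotientGroup.mk' (centralizer (N : Set Γ)))).index := by
      rw [← Subgroup.index_comap_of_surjective _ (QuotientGroup.mk'_surjective (centralizer (N : Set Γ))), comap_map_eq,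
        QuotientGroup.ker_mk']
    rw [h1]
    have h2 := Subgroup.card_mul_index (N.map (QuotientGroup.mk' (centralizer (N : Set Γ))))
    rw [Nat.card_congr f.toEquiv, Nat.card_congr e'.toEquiv] at h2
    have h3 : Nat.card S ≤ Nat.card (MulAut (Matrix.ProjectiveSpecialLinearGroup (Fin 2) (ZMod q))) :=
      Nat.card_le_card_of_injective _ S.subtype_injective
    have h4 : Nat.card (MulAut (Matrix.ProjectiveSpecialLinearGroup (Fin 2) (ZMod q))) =
        2 * Nat.card (Inn (Matrix.ProjectiveSpecialLinearGroup (Fin 2) (ZMod q))) := by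
      have h9 := Subgroup.card_mul_index (Inn (Matrix.ProjectiveSpecialLinearGroup (Fin 2) (ZMod q)))
      rw [Subgroup.index_eq_card, card_out h5] at h9
      rw [← h9, mul_comm]
    have h6 : Nat.card (Inn (Matrix.ProjectiveSpecialLinearGroup (Fin 2) (ZMod q))) ≤
        Nat.card (Matrix.ProjectiveSpecialLinearGroup (Fin 2) (ZMod q)) :=
      Nat.card_le_card_of_surjective _ (MonoidHom.rangeRestrict_surjective _)
    have h7 : 0 < Nat.card (Matrix.ProjectiveSpecialLinearGroup (Fin 2) (ZMod q)) := Nat.card_pos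
    have h8 : Nat.card (Matrix.ProjectiveSpecialLinearGroup (Fin 2) (ZMod q)) *
        (N.map (QuotientGroup.mk' (centralizer (N : Set Γ)))).index ≤
        Nat.card (Matrix.ProjectiveSpecialLinearGroup (Fin 2) (ZMod q)) * 2 := by
      rw [h2]
      omega
    exact Nat.le_of_mul_le_mul_left h8 h7

end abstract

section rows

open Cfsg.Agent.H50.Her Cfsg.Agent.PermutationGroups Module

variable {V : Type u} [AddCommGroup V] [Module (ZMod 3) V] [Finite V]

theorem lgood {G A L : Subgroup (V ≃ₗ[ZMod 3] V)} (htr : ∀ v w : V, v ≠ 0 → w ≠ 0 → ∃ g ∈ G, g v = w)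
    (hL : Perf G A L) [Nontrivial V] {q : ℕ} [hq : Fact q.Prime] (h5 : 5 ≤ q)
    (he : Nonempty (L ≃* Matrix.SpecialLinearGroup (Fin 2) (ZMod q))) : LGood G := by
  obtain ⟨e⟩ := he
  have h3 : Fact (Nat.Prime 3) := ⟨Nat.prime_three⟩
  have hfG := H479.GenLin.finG G
  obtain ⟨N, hNd⟩ : ∃ N : Subgroup ↥G, N = L.subgroupOf G := ⟨_, rfl⟩
  have hNn : N.Normal := by
    rw [hNd]
    refine ⟨fun n hn g => ?_⟩
    exact Subgroup.mem_subgroupOf.2 (hL.nor g g.2 n (Subgroup.mem_subgroupOf.1 hn))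
  have eN : N ≃* Matrix.SpecialLinearGroup (Fin 2) (ZMod q) := by
    rw [hNd]
    exact (Subgroup.subgroupOfEquivOfLe hL.le).trans e
  refine ⟨twoGen_sl2 N h5 eN ?_ ?_, ?_⟩
  · refine (PermutationGroups.RegularLinear.isCyclic_and_card_dvd (endAlg L) (hL.endAlg_inj htr) (G.subtype.comp (centralizer (N : Set ↥G)).subtype)
      (G.subtype_injective.comp (centralizer (N : Set ↥G)).subtype_injective) ?_).1
    intro c
    rw [mem_endAlg]
    intro g hg v
    have h1 := mem_centralizer_iff.1 c.2 ⟨g, hL.le hg⟩ (by rw [hNd]; exact mem_subgroupOf.2 hg)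
    have h2 : g * ((c : ↥G) : V ≃ₗ[ZMod 3] V) = ((c : ↥G) : V ≃ₗ[ZMod 3] V) * g := congrArg Subtype.val h1
    exact (DFunLike.congr_fun h2 v).symm
  · apply Subgroup.map_injective G.subtype_injective
    rw [Subgroup.map_commutator, hNd, Subgroup.subgroupOf_map_subtype, inf_eq_left.2 hL.le, hL.perf]
  · -- the centre of `N`
    have hsq : ∀ c ∈ center ↥N, c * c = 1 := by
      intro c hc
      have h1 : eN c ∈ center (Matrix.SpecialLinearGroup (Fin 2) (ZMod q)) := by
        rw [mem_center_iff] at hc ⊢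
        intro m
        obtain ⟨m, rfl⟩ := eN.surjective m
        rw [← map_mul, ← map_mul, hc m]
      obtain ⟨r, hr, hs⟩ := Matrix.SpecialLinearGroup.mem_center_iff.1 h1
      apply eN.injective
      rw [map_mul, map_one]
      apply Subtype.ext
      rw [Matrix.SpecialLinearGroup.coe_mul, ← hs, ← map_mul, Matrix.SpecialLinearGroup.coe_one, ← pow_two]
      rw [Fintype.card_fin] at hr
      rw [hr, map_one]
    have hneg : eN.symm (-1) ∈ center ↥N := by
      rw [mem_center_iff]
      intro m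
      apply eN.injective
      rw [map_mul, map_mul, eN.apply_symm_apply]
      simp
    have hne : eN.symm (-1) ≠ 1 := by
      intro h
      have h1 : (-1 : Matrix.SpecialLinearGroup (Fin 2) (ZMod q)) = 1 := by
        apply eN.symm.injective
        rw [h, map_one]
      have h2 := congrArg (fun A : Matrix.SpecialLinearGroup (Fin 2) (ZMod q) => A 0 0) h1
      have h4 : (-1 : ZMod q) = 1 := by simpa using h2
      have h6 : ((2 : ℕ) : ZMod q) = 0 := by
        push_cast
        linear_combination -h4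
      rw [ZMod.natCast_eq_zero_iff] at h6
      have := Nat.le_of_dvd (by norm_num) h6
      omega
    refine H479.GenLin.small_of_norm htr ((center ↥N).map N.subtype) ?_ ?_
    · intro h
      have h1 : ((eN.symm (-1) : ↥N) : ↥G) ∈ (center ↥N).map N.subtype := ⟨_, hneg, rfl⟩
      rw [h, mem_bot] at h1
      exact hne (Subtype.ext h1)
    · have h2 : IsPGroup 2 ↥((center ↥N).map N.subtype) := by
        rintro ⟨x, c, hc, rfl⟩
        refine ⟨1, ?_⟩
        apply Subtype.ext
        rw [pow_one, pow_two]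
        show (c : ↥G) * (c : ↥G) = 1
        exact congrArg Subtype.val (hsq c hc)
      obtain ⟨k, hk⟩ := IsPGroup.iff_card.1 h2
      rw [hk]
      intro h6
      have := Nat.prime_three.dvd_of_dvd_pow h6
      omega

theorem sl213_row : ∀ (V : Type u) [AddCommGroup V] [Module (ZMod 3) V] [Finite V]
    (G A L : Subgroup (V ≃ₗ[ZMod 3] V)), (∀ v w : V, v ≠ 0 → w ≠ 0 → ∃ g ∈ G, g v = w) → MaxAb G A → Perf G A L →
    Quasi A L → finrank (ZMod 3) V = 6 → Nat.card (endAlg L) = 3 →
    Nonempty (L ≃* Matrix.SpecialLinearGroup (Fin 2) (ZMod 13)) → LGood G := by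
  intro V _ _ _ G A L htr _ hL _ hV _ he
  have : Fact (Nat.Prime 13) := ⟨by norm_num⟩
  have : Nontrivial V := by
    have h3 : Fact (Nat.Prime 3) := ⟨Nat.prime_three⟩
    exact Module.nontrivial_of_finrank_pos (R := ZMod 3) (by omega)
  exact lgood htr hL (by norm_num) he

theorem sl25'_row : ∀ (V : Type u) [AddCommGroup V] [Module (ZMod 3) V] [Finite V]
    (G A L : Subgroup (V ≃ₗ[ZMod 3] V)), (∀ v w : V, v ≠ 0 → w ≠ 0 → ∃ g ∈ G, g v = w) → MaxAb G A → Perf G A L →
    Quasi A L → finrank (ZMod 3) V = 4 → Nonempty (L ≃* Matrix.SpecialLinearGroup (Fin 2) (ZMod 5)) → LGood G := by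
  intro V _ _ _ G A L htr _ hL _ hV he
  have : Fact (Nat.Prime 5) := ⟨by norm_num⟩
  have : Nontrivial V := by
    have h3 : Fact (Nat.Prime 3) := ⟨Nat.prime_three⟩
    exact Module.nontrivial_of_finrank_pos (R := ZMod 3) (by omega)
  exact lgood htr hL (by norm_num) he

end rows

end Cfsg.Agent.H495.Gen
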